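import Cfsg.Agent.Screen.TwoGroupNormal
import Cfsg.Agent.FGS3.PGroupFrattini
import Mathlib.GroupTheory.SpecificGroups.Dihedral

/-!
Two-groups of order at least `2 ^ 14` with fourth centre of order `16` in which the centraliser of
the third centre has a small Frattini subgroup: orders and the structure of that centraliser.
-/

set_option autoImplicit false
set_option linter.unusedSectionVars false
set_option linter.style.haveILetI false

namespace Cfsg.Agent.FGS3.RudvalisType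

open scoped commutatorElement

variable {T : Type*} [Group T] [Finite T]

local notation "Z" => Subgroup.upperCentralSeries T

/-- The standing conditions. -/
structure Cond (W : Subgroup T) : Prop where
  isTwo : IsPGroup 2 T
  big : 2 ^ 14 ≤ Nat.card T
  four : Nat.card (Subgroup.upperCentralSeries T 4) = 16
  cen : W = Subgroup.centralizer ((Subgroup.upperCentralSeries T 3 : Subgroup T) : Set T)
  small : Nat.card ((frattini W).map W.subtype) ≤ 8
  deep : ∀ U : Subgroup T, U ≤ W → U.relIndex W ≤ 16 → (frattini W).map W.subtype ≤ U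

theorem cond_of {W : Subgroup T} (hT : IsPGroup 2 T) (ha : 2 ^ 14 ≤ Nat.card T)
    (hb : Nat.card (Subgroup.upperCentralSeries T 4) = 16)
    (hW : W = Subgroup.centralizer ((Subgroup.upperCentralSeries T 3 : Subgroup T) : Set T))
    (hc : Nat.card (frattini W) ≤ 8) (hd : ∀ U : Subgroup W, U.index ≤ 16 → frattini W ≤ U) :
    Cond W where
  isTwo := hT
  big := ha
  four := hb
  cen := hW
  small := by rw [Subgroup.card_map_of_injective W.subtype_injective]; exact hc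
  deep U hU h := by
    rintro _ ⟨x, hx, rfl⟩
    exact hd (U.subgroupOf W) h hx

theorem two_mul_card_le {A B : Subgroup T} (h : A < B) : 2 * Nat.card A ≤ Nat.card B := by
  have h1 : Nat.card A * A.relIndex B = Nat.card B := by
    rw [← Subgroup.relIndex_bot_left, ← Subgroup.relIndex_bot_left,
      Subgroup.relIndex_mul_relIndex _ _ _ bot_le h.le]
  have h2 : 2 ≤ A.relIndex B := by
    by_contra hlt
    have h3 : A.relIndex B ≠ 1 := fun e => h.not_ge (Subgroup.relIndex_eq_one.1 e)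
    have h4 : A.relIndex B ≠ 0 := fun e => by
      rw [e, mul_zero] at h1
      exact Nat.card_pos.ne' h1.symm
    omega
  calc 2 * Nat.card A ≤ A.relIndex B * Nat.card A := Nat.mul_le_mul_right _ h2
    _ = Nat.card B := by rw [mul_comm, h1]

/-- Adjoining an element to a subgroup of index two steps. -/
def adj (U K L : Subgroup T) (hsq : ∀ x ∈ U, x * x ∈ K) (hKL : K ≤ L) (hLU : L ≤ U) {x : T} (hx : x ∈ U) :
    Subgroup T :=
  have hcom : ∀ a ∈ U, ∀ b ∈ U, ⁅a, b⁆ ∈ L := fun a ha b hb => by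
    refine hKL ?_
    have e : ⁅a, b⁆ = a * a * ((a⁻¹ * b) * (a⁻¹ * b)) * (b * b)⁻¹ := by
      rw [commutatorElement_def]; group
    rw [e]
    exact K.mul_mem (K.mul_mem (hsq a ha) (hsq _ (U.mul_mem (U.inv_mem ha) hb))) (K.inv_mem (hsq b hb))
  { carrier := {m | m ∈ U ∧ (m ∈ L ∨ m * x ∈ L)}
    one_mem' := ⟨U.one_mem, Or.inl L.one_mem⟩
    mul_mem' := by
      rintro a b ⟨ha, ha'⟩ ⟨hb, hb'⟩
      refine ⟨U.mul_mem ha hb, ?_⟩
      rcases ha' with h | h <;> rcases hb' with h' | h'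
      · exact Or.inl (L.mul_mem h h')
      · right; rw [mul_assoc]; exact L.mul_mem h h'
      · right
        rw [show a * b * x = a * x * (⁅x⁻¹, b⁆ * b) by rw [commutatorElement_def]; group]
        exact L.mul_mem h (L.mul_mem (hcom _ (U.inv_mem hx) b hb) h')
      · left
        rw [show a * b = a * x * (⁅x⁻¹, b⁆ * (b * x) * (x * x)⁻¹ * ⁅x, x⁆) by
          rw [commutatorElement_self, mul_one, commutatorElement_def]; group]
        exact L.mul_mem h (L.mul_mem (L.mul_mem (L.mul_mem (hcom _ (U.inv_mem hx) b hb) h')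
          (L.inv_mem (hKL (hsq x hx)))) (hcom x hx x hx))
    inv_mem' := by
      rintro a ⟨ha, h | h⟩
      · exact ⟨U.inv_mem ha, Or.inl (L.inv_mem h)⟩
      · refine ⟨U.inv_mem ha, Or.inr ?_⟩
        rw [show a⁻¹ * x = ⁅a⁻¹, x⁆ * (x * x) * (a * x)⁻¹ by rw [commutatorElement_def]; group]
        exact L.mul_mem (L.mul_mem (hcom _ (U.inv_mem ha) x hx) (hKL (hsq x hx))) (L.inv_mem h) }

theorem mem_adj {U K L : Subgroup T} {hsq : ∀ x ∈ U, x * x ∈ K} {hKL : K ≤ L} {hLU : L ≤ U} {x : T}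
    {hx : x ∈ U} {m : T} :
    m ∈ adj U K L hsq hKL hLU hx ↔ m ∈ U ∧ (m ∈ L ∨ m * x ∈ L) := Iff.rfl

theorem relIndex_le_two {U L : Subgroup T} {x : T} (hx : x ∈ U)
    (h : ∀ m ∈ U, m ∈ L ∨ m * x ∈ L) : L.relIndex U ≤ 2 := by
  by_cases hxL : x ∈ L
  · have : U ≤ L := fun m hm => by
      rcases h m hm with h1 | h1
      · exact h1
      · simpa using L.mul_mem h1 (L.inv_mem hxL)
    rw [Subgroup.relIndex_eq_one.2 this]; omega
  · refine le_of_eq ((Subgroup.index_eq_two_iff).2 ⟨⟨x, hx⟩, fun ⟨m, hm⟩ => ?_⟩)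
    show Xor (m * x ∈ L) (m ∈ L)
    rcases h m hm with h1 | h1
    · refine Or.inr ⟨h1, fun h2 => hxL ?_⟩
      simpa using L.mul_mem (L.inv_mem h1) h2
    · refine Or.inl ⟨h1, fun h2 => hxL ?_⟩
      simpa using L.mul_mem (L.inv_mem h2) h1

/-- A subgroup of index two, modulo squares, avoiding a given element. -/
theorem exists_half {U K : Subgroup T} (hKU : K ≤ U) (hsq : ∀ x ∈ U, x * x ∈ K) {e : T} (he : e ∈ U)
    (heK : e ∉ K) : ∃ L : Subgroup T, K ≤ L ∧ L ≤ U ∧ e ∉ L ∧ (∀ m ∈ U, m ∈ L ∨ m * e ∈ L) ∧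
      L.relIndex U ≤ 2 := by
  obtain ⟨L, ⟨hKL, hLU, heL⟩, hmax⟩ := Set.Finite.exists_maximal (Set.toFinite
    {L : Subgroup T | K ≤ L ∧ L ≤ U ∧ e ∉ L}) ⟨K, le_rfl, hKU, heK⟩
  have hhalf : ∀ m ∈ U, m ∈ L ∨ m * e ∈ L := by
    intro m hm
    refine or_iff_not_imp_left.2 fun hmL => ?_
    set A := adj U K L hsq hKL hLU hm
    have hLA : L ≤ A := fun a ha => ⟨hLU ha, Or.inl ha⟩
    have hmA : m ∈ A := ⟨hm, Or.inr (hKL (hsq m hm))⟩
    have heA : e ∈ A := by
      by_contra h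
      exact hmL (hmax ⟨hKL.trans hLA, fun a ha => ha.1, h⟩ hLA hmA)
    have h1 : e * m ∈ L := heA.2.resolve_left heL
    have h2 : m * e = m * m * ((e * e)⁻¹ * (e * m))⁻¹ := by group
    rw [h2]
    exact L.mul_mem (hKL (hsq m hm)) (L.inv_mem (L.mul_mem (L.inv_mem (hKL (hsq e he))) h1))
  exact ⟨L, hKL, hLU, heL, hhalf, relIndex_le_two he hhalf⟩

/-- Strict growth of the upper central series. -/
theorem exists_upper {N : Subgroup T} [N.Normal] (hT : IsPGroup 2 T) (j : ℕ) (h : ¬ N ≤ Z j) :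
    ∃ c ∈ N, c ∉ Z j ∧ c ∈ Z (j + 1) := by
  obtain ⟨c, hc, hcj, hcs⟩ := Screen.exists_central_mod hT N (Z j) h
  refine ⟨c, hc, hcj, Subgroup.mem_upperCentralSeries_succ_iff.2 fun y => ?_⟩
  have := (Z j).inv_mem (hcs y)
  rw [commutatorElement_def]
  simpa [mul_assoc] using this

/-- A normal subgroup outside a term is large. -/
theorem pow_le_card {N : Subgroup T} [N.Normal] (hT : IsPGroup 2 T) : ∀ i, ¬ N ≤ Z i →
    2 ^ i ≤ Nat.card (N ⊓ Z i : Subgroup T) ∧ 2 ^ (i + 1) ≤ Nat.card N := by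
  intro i
  induction i with
  | zero =>
    intro h
    have h1 : (N ⊓ Z 0 : Subgroup T) < N := inf_lt_left.2 h
    have h2 := two_mul_card_le h1
    have h3 : 0 < Nat.card (N ⊓ Z 0 : Subgroup T) := Nat.card_pos
    constructor <;> simp <;> omega
  | succ i ih =>
    intro h
    have h0 : ¬ N ≤ Z i := fun h' => h (h'.trans (Subgroup.upperCentralSeries_mono T (Nat.le_succ i)))
    obtain ⟨c, hc, hci, hci'⟩ := exists_upper hT i h0
    have h1 : (N ⊓ Z i : Subgroup T) < N ⊓ Z (i + 1) :=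
      lt_of_le_of_ne (inf_le_inf_left N (Subgroup.upperCentralSeries_mono T (Nat.le_succ i)))
        fun e => hci ((e ▸ (⟨hc, hci'⟩ : c ∈ N ⊓ Z (i + 1)) : c ∈ N ⊓ Z i)).2
    have h2 := two_mul_card_le h1
    have h3 := two_mul_card_le (inf_lt_left.2 h : N ⊓ Z (i + 1) < N)
    have h4 := (ih h0).1
    refine ⟨?_, ?_⟩
    · rw [pow_succ]; omega
    · rw [pow_succ, pow_succ]; omega

theorem le_upper {N : Subgroup T} [N.Normal] (hT : IsPGroup 2 T) {i : ℕ} (h : Nat.card N ≤ 2 ^ i) :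
    N ≤ Z i := by
  by_contra hno
  have := (pow_le_card hT i hno).2
  rw [pow_succ] at this
  have : 0 < 2 ^ i := by positivity
  omega

variable {W : Subgroup T} (hW : Cond W)
include hW

theorem card_upper : Nat.card (Z 1) = 2 ∧ Nat.card (Z 2) = 4 ∧ Nat.card (Z 3) = 8 := by
  have step : ∀ j, j < 4 → 2 * Nat.card (Z j) ≤ Nat.card (Z (j + 1)) := by
    intro j hj
    refine two_mul_card_le (lt_of_le_of_ne (Subgroup.upperCentralSeries_mono T j.le_succ) fun e => ?_)
    have h : ¬ (⊤ : Subgroup T) ≤ Z j := fun h => by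
      have h1 := Subgroup.card_le_of_le (h.trans (Subgroup.upperCentralSeries_mono T (le_of_lt hj)))
      rw [Subgroup.card_top, hW.four] at h1
      have := hW.big
      omega
    obtain ⟨c, -, hcj, hcj'⟩ := exists_upper hW.isTwo j h
    exact hcj (e ▸ hcj')
  have h0 : Nat.card (Z 0) = 1 := by rw [Subgroup.upperCentralSeries_zero, Subgroup.card_bot]
  have h1 := step 0 (by omega)
  have h2 := step 1 (by omega)
  have h3 := step 2 (by omega)
  have h4 : 2 * Nat.card (Z 3) ≤ Nat.card (Z 4) := step 3 (by omega)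
  rw [hW.four] at h4
  simp only [zero_add] at h1
  change 2 * Nat.card (Z 1) ≤ Nat.card (Z 2) at h2
  change 2 * Nat.card (Z 2) ≤ Nat.card (Z 3) at h3
  omega

theorem normal : W.Normal := by
  rw [hW.cen]; infer_instance

omit hW in
/-- In a doubled subgroup an element outside the half moves everything into it. -/
theorem double {A B : Subgroup T} (hAB : A ≤ B) (hcard : Nat.card B = 2 * Nat.card A) {e : T}
    (heB : e ∈ B) (heA : e ∉ A) {x : T} (hx : x ∈ B) (hxA : x ∉ A) : e * x ∈ A := by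
  have h2 : A.relIndex B = 2 := by
    have h1 : Nat.card A * A.relIndex B = Nat.card B := by
      rw [← Subgroup.relIndex_bot_left, ← Subgroup.relIndex_bot_left,
        Subgroup.relIndex_mul_relIndex _ _ _ bot_le hAB]
    rw [hcard, mul_comm 2] at h1
    exact Nat.eq_of_mul_eq_mul_left Nat.card_pos h1
  exact (Subgroup.mul_mem_iff_of_index_two (H := A.subgroupOf B) h2 (a := ⟨e, heB⟩) (b := ⟨x, hx⟩)).2
    (iff_of_false heA hxA)

/-- Representatives of the layers. -/
theorem exists_reps : ∃ e2 e3 : T, e2 ∈ Z 2 ∧ e2 ∉ Z 1 ∧ e3 ∈ Z 3 ∧ e3 ∉ Z 2 := by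
  obtain ⟨h1, h2, h3⟩ := card_upper hW
  have key : ∀ j, Nat.card (Z j) < Nat.card (Z (j + 1)) → ∃ e, e ∈ Z (j + 1) ∧ e ∉ Z j := by
    intro j hj
    by_contra! hno
    have := Subgroup.card_le_of_le (show Z (j + 1) ≤ Z j from hno)
    omega
  obtain ⟨e2, a, b⟩ := key 1 (by show Nat.card (Z 1) < Nat.card (Z 2); omega)
  obtain ⟨e3, c, d⟩ := key 2 (by show Nat.card (Z 2) < Nat.card (Z 3); omega)
  exact ⟨e2, e3, a, b, c, d⟩

omit hW in
theorem conj_div_mem {j : ℕ} {x : T} (hx : x ∈ Z (j + 1)) (t : T) : t * x * t⁻¹ * x⁻¹ ∈ Z j := by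
  have := (Z j).inv_mem (Subgroup.mem_upperCentralSeries_succ_iff.1 hx t)
  rw [commutatorElement_inv, commutatorElement_def] at this
  exact this

omit hW in
theorem commute_one {z : T} (hz : z ∈ Z 1) (t : T) : Commute t z := by
  have := conj_div_mem (j := 0) hz t
  rw [Subgroup.upperCentralSeries_zero, Subgroup.mem_bot, mul_inv_eq_one, mul_inv_eq_iff_eq_mul] at this
  exact this

/-- What centralises the two representatives centralises the third centre. -/
theorem mem_of_fix {e2 e3 : T} (a : e2 ∈ Z 2) (b : e2 ∉ Z 1) (c : e3 ∈ Z 3) (d : e3 ∉ Z 2) {t : T}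
    (h2 : Commute t e2) (h3 : Commute t e3) : t ∈ W := by
  obtain ⟨c1, c2, c3⟩ := card_upper hW
  have hm := Subgroup.upperCentralSeries_mono T
  have hZ2 : ∀ x ∈ Z 2, Commute t x := fun x hx => by
    by_cases hx1 : x ∈ Z 1
    · exact commute_one hx1 t
    have h := double (hm (show 1 ≤ 2 by omega)) (by omega) a b hx hx1
    have := h2.inv_right.mul_right (commute_one h t)
    rwa [inv_mul_cancel_left] at this
  rw [hW.cen, Subgroup.mem_centralizer_iff]
  intro x hx
  refine Commute.eq (Commute.symm ?_)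
  by_cases hx2 : x ∈ Z 2
  · exact hZ2 x hx2
  have h := double (hm (show 2 ≤ 3 by omega)) (by omega) c d hx hx2
  have := h3.inv_right.mul_right (hZ2 _ h)
  rwa [inv_mul_cancel_left] at this

theorem commute_upper {w : T} (hw : w ∈ W) {x : T} (hx : x ∈ Z 3) : Commute w x := by
  rw [hW.cen, Subgroup.mem_centralizer_iff] at hw
  exact (hw x hx).symm

theorem index_le : W.index ≤ 8 := by
  haveI := normal hW
  obtain ⟨e2, e3, a, b, c, d⟩ := exists_reps hW
  obtain ⟨c1, c2, -⟩ := card_upper hW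
  let f : T ⧸ W → Z 1 × Z 2 := fun q =>
    (⟨_, conj_div_mem a q.out⟩, ⟨_, conj_div_mem c q.out⟩)
  have hf : Function.Injective f := by
    intro q q' h
    simp only [f, Prod.mk.injEq, Subtype.mk.injEq, mul_left_inj] at h
    have key : ∀ e, q.out * e * q.out⁻¹ = q'.out * e * q'.out⁻¹ → Commute (q'.out⁻¹ * q.out) e :=
      fun e he => by
      show q'.out⁻¹ * q.out * e = e * (q'.out⁻¹ * q.out)
      calc q'.out⁻¹ * q.out * e = q'.out⁻¹ * (q.out * e * q.out⁻¹) * q.out := by group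
        _ = _ := by rw [he]; group
    have := mem_of_fix hW a b c d (key _ h.1) (key _ h.2)
    rw [← QuotientGroup.out_eq' q, ← QuotientGroup.out_eq' q']
    exact (QuotientGroup.eq.2 this).symm
  rw [Subgroup.index_eq_card]
  refine (Nat.card_le_card_of_injective f hf).trans ?_
  rw [Nat.card_prod, c1, c2]

theorem isTwo_W : IsPGroup 2 W := hW.isTwo.to_subgroup W

theorem sq_mem {x : T} (hx : x ∈ W) : x * x ∈ (frattini W).map W.subtype :=
  ⟨⟨x, hx⟩ * ⟨x, hx⟩, by rw [← pow_two]; exact pow_mem_frattini (isTwo_W hW) _, rfl⟩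

theorem comm_mem {x y : T} (hx : x ∈ W) (hy : y ∈ W) : ⁅x, y⁆ ∈ (frattini W).map W.subtype :=
  ⟨⁅(⟨x, hx⟩ : W), ⟨y, hy⟩⁆, commutator_le_frattini (isTwo_W hW)
    (Subgroup.commutator_mem_commutator (Subgroup.mem_top _) (Subgroup.mem_top _)), rfl⟩

/-- The main counting: all orders are forced, and a vector with independent translates exists. -/
theorem main : Nat.card T = 2 ^ 14 ∧ W.index = 8 ∧ Nat.card W = 2 ^ 11 ∧
    (frattini W).map W.subtype = Z 3 ∧
    ∃ L : Subgroup T, ∃ u w : T, Z 3 ≤ L ∧ L ≤ W ∧ u ∈ W ∧ u ∈ Z 4 ∧ u ∉ L ∧ w ∈ W ∧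
      (∀ a ∈ W, ∀ b ∈ W, (a * b ∈ L ↔ (a ∈ L ↔ b ∈ L))) ∧
      (∀ t, t * w * t⁻¹ ∈ L ↔ t ∉ W) ∧
      (∀ m ∈ W, (∀ t, t * m * t⁻¹ ∈ L) → m ∈ Z 3) ∧
      (∀ m ∈ W, m ∈ Z 4 → m ∉ Z 3 → u * m ∈ Z 3) := by
  classical
  haveI := normal hW
  set Φ := (frattini W).map W.subtype with hΦ
  haveI hΦn : Φ.Normal := by
    haveI : (frattini W).Characteristic := frattini_characteristic
    infer_instance
  obtain ⟨c1, c2, c3⟩ := card_upper hW
  have hΦ3 : Φ ≤ Z 3 := le_upper hW.isTwo (by have := hW.small; norm_num; exact this)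
  obtain ⟨i, hi⟩ := IsPGroup.iff_card.1 (hW.isTwo.to_subgroup Φ)
  have hi3 : i ≤ 3 := by
    have := hW.small
    rw [hi, show 8 = 2 ^ 3 from rfl] at this
    exact (Nat.pow_le_pow_iff_right (by omega)).1 this
  have hcardZ : ∀ j ≤ 4, Nat.card (Z j) = 2 ^ j := by
    intro j hj
    interval_cases j
    · rw [Subgroup.upperCentralSeries_zero, Subgroup.card_bot, pow_zero]
    · exact c1
    · exact c2
    · exact c3
    · exact hW.four
  have hΦi : Φ = Z i := Subgroup.eq_of_le_of_card_ge (le_upper hW.isTwo hi.le)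
    (by rw [hcardZ i (by omega), hi])
  have hidx := index_le hW
  have hcard := W.index_mul_card
  have hbig := hW.big
  have hWcard : 2 ^ 11 ≤ Nat.card W := by
    have : W.index * Nat.card W ≤ 8 * Nat.card W := Nat.mul_le_mul_right _ hidx
    omega
  have hWΦ : ¬ W ≤ Φ := fun h => by
    have := (Subgroup.card_le_of_le h).trans hW.small
    omega
  -- the fixed vector
  obtain ⟨u, huW, huΦ, hus⟩ := Screen.exists_central_mod hW.isTwo W Φ hWΦ
  have hfix : ∀ m : T, (∀ s, s * m * s⁻¹ * m⁻¹ ∈ Φ) → m ∈ Z (i + 1) := fun m hm =>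
    Subgroup.mem_upperCentralSeries_succ_iff.2 fun y => by
      have := (Z i).inv_mem (hΦi ▸ hm y)
      rw [commutatorElement_def]
      simpa [mul_assoc] using this
  have huZ := hfix u hus
  have huniq : ∀ m, m ∈ Z (i + 1) → m ∉ Φ → u * m ∈ Φ := fun m hm hmΦ => by
    rw [hΦi] at huΦ hmΦ ⊢
    refine double (Subgroup.upperCentralSeries_mono T i.le_succ) ?_ huZ huΦ hm hmΦ
    rw [hcardZ _ (by omega), hcardZ _ (by omega), pow_succ']
  obtain ⟨L, hΦL, hLW, huL, hhalf, -⟩ := exists_half (U := W) (K := Φ) (Subgroup.map_subtype_le _)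
    (fun x hx => sq_mem hW hx) huW huΦ
  have hL2 : ∀ a ∈ W, ∀ b ∈ W, (a * b ∈ L ↔ (a ∈ L ↔ b ∈ L)) := by
    intro a ha b hb
    constructor
    · intro hab
      constructor
      · intro h; simpa using L.mul_mem (L.inv_mem h) hab
      · intro h; simpa using L.mul_mem hab (L.inv_mem h)
    · intro hiff
      by_cases h : a ∈ L
      · exact L.mul_mem h (hiff.1 h)
      have ha' := (hhalf a ha).resolve_left h
      have hb' := (hhalf b hb).resolve_left (fun h' => h (hiff.2 h'))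
      rw [show a * b = (a * u) * (⁅u⁻¹, b⁆ * (b * u) * (u * u)⁻¹) by rw [commutatorElement_def]; group]
      exact L.mul_mem ha' (L.mul_mem (L.mul_mem (hΦL (comm_mem hW (W.inv_mem huW) hb)) hb')
        (L.inv_mem (hΦL (sq_mem hW huW))))
  have hconjW : ∀ t, ∀ m ∈ W, t * m * t⁻¹ ∈ W := fun t m hm => (normal hW).conj_mem m hm t
  have hconjΦ : ∀ t, ∀ m ∈ Φ, t * m * t⁻¹ ∈ Φ := fun t m hm => hΦn.conj_mem m hm t
  -- `N`, the largest normal subgroup inside `L`
  have hN : ∀ m ∈ W, (∀ t, t * m * t⁻¹ ∈ L) → m ∈ Φ := by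
    intro m hm hall
    by_contra hmΦ
    obtain ⟨c, hc, hcΦ, hcs⟩ := Screen.exists_central_mod hW.isTwo L.normalCore Φ
      (fun h => hmΦ (h hall))
    have h1 := huniq c (hfix c hcs) hcΦ
    refine huL ?_
    have hcL : c ∈ L := L.normalCore_le hc
    simpa using L.mul_mem (hΦL h1) (L.inv_mem hcL)
  let S : W → T ⧸ W → Bool := fun m q => decide (q.out * (m : T) * q.out⁻¹ ∈ L)
  have hS : ∀ (m : W) (t : T), S m (t : T ⧸ W) = decide (t * (m : T) * t⁻¹ ∈ L) := by
    intro m t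
    obtain ⟨⟨x, hx⟩, hxe⟩ := QuotientGroup.mk_out_eq_mul W t
    show decide _ = decide _
    rw [decide_eq_decide, hxe]
    have e : t * x * (m : T) * (t * x)⁻¹ = (t * ⁅x, (m : T)⁆ * t⁻¹) * (t * (m : T) * t⁻¹) := by
      rw [commutatorElement_def]; group
    rw [e]
    have h1 : t * ⁅x, (m : T)⁆ * t⁻¹ ∈ L := hΦL (hconjΦ _ _ (comm_mem hW hx m.2))
    rw [hL2 _ (hLW h1) _ (hconjW t _ m.2)]
    simp only [h1, true_iff]
  have hSinj : ∀ m m' : W, S m = S m' → (m : T)⁻¹ * m' ∈ Φ := by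
    intro m m' h
    refine hN _ (W.mul_mem (W.inv_mem m.2) m'.2) fun t => ?_
    have h1 : decide (t * (m : T) * t⁻¹ ∈ L) = decide (t * (m' : T) * t⁻¹ ∈ L) := by rw [← hS, ← hS, h]
    rw [decide_eq_decide] at h1
    rw [show t * ((m : T)⁻¹ * m') * t⁻¹ = (t * (m : T) * t⁻¹)⁻¹ * (t * (m' : T) * t⁻¹) by group,
      hL2 _ (W.inv_mem (hconjW t _ m.2)) _ (hconjW t _ m'.2), Subgroup.inv_mem_iff]
    exact h1
  have hrange : Nat.card W ≤ Nat.card (Set.range S) * Nat.card Φ := by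
    rw [← Nat.card_prod]
    refine Nat.card_le_card_of_injective (fun m : W => ((⟨S m, m, rfl⟩ : Set.range S),
      (⟨((Function.invFun S (S m) : W) : T)⁻¹ * m, hSinj _ _ (Function.invFun_eq ⟨m, rfl⟩)⟩ : Φ))) ?_
    intro m m' h
    simp only [Prod.mk.injEq, Subtype.mk.injEq] at h
    have h2 := h.2
    rw [congrArg (Function.invFun S) (congrArg Subtype.val h.1)] at h2
    exact Subtype.ext (mul_left_cancel h2)
  have hall : Nat.card (T ⧸ W → Bool) = 2 ^ W.index := by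
    rw [Nat.card_fun, Nat.card_eq_fintype_card (α := Bool), Fintype.card_bool, Subgroup.index_eq_card]
  have hle : Nat.card (Set.range S) ≤ 2 ^ W.index :=
    hall ▸ Nat.card_le_card_of_injective _ Subtype.val_injective
  have hle8 : 2 ^ W.index ≤ 2 ^ 8 := Nat.pow_le_pow_right (by omega) hidx
  have hW11 : Nat.card W ≤ 2 ^ 8 * 2 ^ i :=
    hrange.trans (Nat.mul_le_mul (hle.trans hle8) hi.le)
  have hi3' : i = 3 := by
    by_contra hne
    have : 2 ^ i ≤ 2 ^ 2 := Nat.pow_le_pow_right (by omega) (by omega)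
    have := Nat.mul_le_mul_left (2 ^ 8) this
    omega
  subst hi3'
  have hWeq : Nat.card W = 2 ^ 11 := le_antisymm (by norm_num at hW11 ⊢; exact hW11) hWcard
  have hidx8 : W.index = 8 := by
    refine le_antisymm hidx ?_
    by_contra hlt
    rw [hWeq] at hcard
    have : W.index * 2 ^ 11 ≤ 7 * 2 ^ 11 := Nat.mul_le_mul_right _ (by omega)
    omega
  have hsurj : Function.Surjective S := by
    intro f
    have hc : Nat.card (T ⧸ W → Bool) ≤ Nat.card (Set.range S) := by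
      rw [hall, hidx8]
      rw [hWeq, hi] at hrange
      norm_num at hrange ⊢
      omega
    have := (Subtype.val_injective (p := (· ∈ Set.range S))).bijective_of_nat_card_le hc
    obtain ⟨⟨g, m, rfl⟩, rfl⟩ := this.2 f
    exact ⟨m, rfl⟩
  obtain ⟨w, hw⟩ := hsurj fun q => decide (q ≠ 1)
  refine ⟨by rw [← hcard, hidx8, hWeq]; norm_num, hidx8, hWeq, hΦi, L, u, w, hΦi ▸ hΦL, hLW, huW, huZ, huL, w.2,
    hL2, fun t => ?_, fun m hm h => hΦi ▸ hN m hm h, fun m _ hm4 hm3 => hΦi ▸ huniq m hm4 (hΦi ▸ hm3)⟩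
  have := hS w t
  rw [hw] at this
  rw [← decide_eq_decide.1 this]
  exact not_congr (QuotientGroup.eq_one_iff t)

theorem frattini_eq : (frattini W).map W.subtype = Z 3 := (main hW).2.2.2.1

theorem sq_mem' {x : T} (hx : x ∈ W) : x * x ∈ Z 3 := frattini_eq hW ▸ sq_mem hW hx

theorem comm_mem' {x y : T} (hx : x ∈ W) (hy : y ∈ W) : ⁅x, y⁆ ∈ Z 3 :=
  frattini_eq hW ▸ comm_mem hW hx hy

theorem upper_le : Z 3 ≤ W := frattini_eq hW ▸ Subgroup.map_subtype_le _

/-- A subgroup of small index cannot have all squares in a proper subgroup of the third centre. -/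
theorem no_small {U K : Subgroup T} (hUW : U ≤ W) (hidx : U.relIndex W ≤ 8) (hK : K < Z 3)
    (hsq : ∀ x ∈ U, x * x ∈ K) : False := by
  have h16 : ∀ V : Subgroup T, V ≤ W → V.relIndex W ≤ 16 → Z 3 ≤ V := fun V hV h =>
    frattini_eq hW ▸ hW.deep V hV h
  have hZU := h16 U hUW (hidx.trans (by omega))
  obtain ⟨e, he, heK⟩ := SetLike.exists_of_lt hK
  obtain ⟨L, -, hLU, heL, -, hL2⟩ := exists_half (hK.le.trans hZU) hsq (hZU he) heK
  refine heL (h16 L (hLU.trans hUW) ?_ he)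
  rw [← Subgroup.relIndex_mul_relIndex L U W hLU hUW]
  exact (Nat.mul_le_mul hL2 hidx).trans (by omega)

/-- The derived subgroup is the third centre. -/
theorem commutator_eq : ⁅W, W⁆ = Z 3 := by
  have hle : ⁅W, W⁆ ≤ Z 3 := Subgroup.commutator_le.2 fun x hx y hy => comm_mem' hW hx hy
  by_contra hne
  have hlt : (⁅W, W⁆).subgroupOf (Z 3) ≠ ⊤ := fun h =>
    hne (le_antisymm hle fun x hx => (Subgroup.mem_subgroupOf.1 (h ▸ Subgroup.mem_top (⟨x, hx⟩ : Z 3))))
  obtain ⟨M, hM, hCM⟩ := (eq_top_or_exists_le_coatom _).resolve_left hlt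
  have hM2 := index_of_coatom (hW.isTwo.to_subgroup (Z 3)) hM
  set K := M.map (Z 3).subtype with hK
  have hmem : ∀ x (hx : x ∈ Z 3), x ∈ K ↔ (⟨x, hx⟩ : Z 3) ∈ M := fun x hx => by
    constructor
    · rintro ⟨y, hy, e⟩
      rwa [show (⟨x, hx⟩ : Z 3) = y from Subtype.ext e.symm]
    · exact fun h => ⟨_, h, rfl⟩
  have hKlt : K < Z 3 := lt_of_le_of_ne (Subgroup.map_subtype_le M) fun e => hM.1 (eq_top_iff.2
    fun x _ => (hmem x x.2).1 (e.symm ▸ x.2))
  have hCK : ⁅W, W⁆ ≤ K := fun x hx => (hmem x (hle hx)).2 (hCM (Subgroup.mem_subgroupOf.2 hx))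
  have hK2 : ∀ a ∈ Z 3, ∀ b ∈ Z 3, a ∉ K → b ∉ K → a * b ∈ K := fun a ha b hb haK hbK =>
    (hmem _ ((Z 3).mul_mem ha hb)).2 ((Subgroup.mul_mem_iff_of_index_two hM2 (a := (⟨a, ha⟩ : Z 3))
      (b := ⟨b, hb⟩)).2 (iff_of_false (fun h => haK ((hmem a ha).2 h)) (fun h => hbK ((hmem b hb).2 h))))
  have hmul : ∀ x ∈ W, ∀ y ∈ W, x * y * (x * y) = x * x * (⁅x⁻¹, y⁆ * (y * y)) := fun x _ y _ => by
    rw [commutatorElement_def]; group
  let U : Subgroup T :=
    { carrier := {x | x ∈ W ∧ x * x ∈ K}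
      one_mem' := ⟨W.one_mem, by rw [mul_one]; exact K.one_mem⟩
      mul_mem' := fun {x y} hx hy => ⟨W.mul_mem hx.1 hy.1, by
        rw [hmul x hx.1 y hy.1]
        exact K.mul_mem hx.2 (K.mul_mem
          (hCK (Subgroup.commutator_mem_commutator (W.inv_mem hx.1) hy.1)) hy.2)⟩
      inv_mem' := fun {x} hx => ⟨W.inv_mem hx.1, by rw [← mul_inv_rev]; exact K.inv_mem hx.2⟩ }
  refine no_small hW (U := U) (fun x hx => hx.1) ?_ hKlt (fun x hx => hx.2)
  by_cases hall : ∀ x ∈ W, x ∈ U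
  · rw [Subgroup.relIndex_eq_one.2 hall]; omega
  push Not at hall
  obtain ⟨x, hx, hxU⟩ := hall
  refine (relIndex_le_two hx fun m hm => or_iff_not_imp_left.2 fun hmU => ?_).trans (by omega)
  refine ⟨W.mul_mem hm hx, ?_⟩
  rw [hmul m hm x hx]
  by_contra hno
  have h1 : ⁅m⁻¹, x⁆ * (x * x) ∉ K := fun h => hxU ⟨hx, by
    have := K.mul_mem (K.inv_mem (hCK (Subgroup.commutator_mem_commutator (W.inv_mem hm) hx))) h
    rwa [inv_mul_cancel_left] at this⟩
  exact hno (hK2 _ (sq_mem' hW hm) _ ((Z 3).mul_mem (comm_mem' hW (W.inv_mem hm) hx) (sq_mem' hW hx))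
    (fun h => hmU ⟨hm, h⟩) h1)

/-- The third centre is elementary abelian. -/
theorem elementary {z : T} (hz : z ∈ Z 3) : z * z = 1 := by
  rw [← commutator_eq hW, Subgroup.commutator_def] at hz
  have key : z ∈ Z 3 ∧ z * z = 1 := by
    induction hz using Subgroup.closure_induction with
    | mem c hc =>
      obtain ⟨x, hx, y, hy, rfl⟩ := hc
      refine ⟨comm_mem' hW hx hy, ?_⟩
      have h1 : x * ⁅x, y⁆ * x⁻¹ = ⁅x, y⁆ := by
        rw [(commute_upper hW hx (comm_mem' hW hx hy)).eq, mul_inv_cancel_right]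
      have h2 : x * x * y = y * (x * x) :=
        (commute_upper hW hy (sq_mem' hW hx)).eq.symm
      have h3 : x * ⁅x, y⁆ * x⁻¹ * ⁅x, y⁆ = x * x * y * (x * x)⁻¹ * y⁻¹ := by
        rw [commutatorElement_def]; group
      rw [h1, h2, mul_inv_cancel_right, mul_inv_cancel] at h3
      exact h3
    | one => exact ⟨(Z 3).one_mem, mul_one 1⟩
    | mul a b _ _ ha hb =>
      refine ⟨(Z 3).mul_mem ha.1 hb.1, ?_⟩
      rw [(commute_upper hW (upper_le hW ha.1) hb.1).symm.mul_mul_mul_comm, ha.2, hb.2, mul_one]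
    | inv a _ ha => exact ⟨(Z 3).inv_mem ha.1, by rw [← mul_inv_rev, ha.2, inv_one]⟩
  exact key.2

end Cfsg.Agent.FGS3.RudvalisType
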