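import Cfsg.Agent.FGS3.RudvalisType.Basic
import Cfsg.Agent.PermGroups.CubicSuborbit.Shapes
import Mathlib.Algebra.BigOperators.Group.Finset.Basic
import Mathlib.Data.ZMod.Basic

/-!
The centre of the centraliser of the third centre, and the quotient by that centraliser, in the
two-groups of `Basic`.
-/

set_option autoImplicit false
set_option linter.unusedSectionVars false
set_option linter.style.haveILetI false

namespace Cfsg.Agent.FGS3.RudvalisType

open scoped commutatorElement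

variable {T : Type*} [Group T] [Finite T]

local notation "Z" => Subgroup.upperCentralSeries T

open scoped Classical in
/-- The parity on the third centre modulo the second. -/
noncomputable def par (z : T) : ZMod 2 := if z ∈ Z 2 then 0 else 1

/-- The alternating form of commutators. -/
noncomputable def form (x y : T) : ZMod 2 := par ⁅x, y⁆

theorem par_one : par (1 : T) = 0 := by simp [par]

theorem par_eq_zero {z : T} : par z = 0 ↔ z ∈ Z 2 := by
  by_cases h : z ∈ Z 2 <;> simp [par, h]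

theorem par_conj (t z : T) : par (t * z * t⁻¹) = par z := by
  have hn : (Z 2).Normal := inferInstance
  have : t * z * t⁻¹ ∈ Z 2 ↔ z ∈ Z 2 :=
    ⟨fun h => by simpa [mul_assoc] using hn.conj_mem _ h t⁻¹, fun h => hn.conj_mem _ h t⟩
  by_cases h : z ∈ Z 2 <;> simp [par, this, h]

theorem form_conj (t x y : T) : form (t * x * t⁻¹) (t * y * t⁻¹) = form x y := by
  unfold form
  rw [← par_conj t ⁅x, y⁆]
  congr 1
  simp only [commutatorElement_def]; group

variable {W : Subgroup T} (hW : Cond W)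
include hW

theorem par_mul {a b : T} (ha : a ∈ Z 3) (hb : b ∈ Z 3) : par (a * b) = par a + par b := by
  obtain ⟨-, c2, c3⟩ := card_upper hW
  by_cases h : a ∈ Z 2
  · by_cases h' : b ∈ Z 2 <;> simp [par, h, h', (Z 2).mul_mem_cancel_left h]
  by_cases h' : b ∈ Z 2
  · simp [par, h, h', (Z 2).mul_mem_cancel_right h']
  have := double (Subgroup.upperCentralSeries_mono T (show 2 ≤ 3 by omega)) (by omega) ha h hb h'
  simp [par, h, h', this]
  decide

theorem form_mul_left {x x' y : T} (hx : x ∈ W) (hx' : x' ∈ W) (hy : y ∈ W) :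
    form (x * x') y = form x y + form x' y := by
  have h : ⁅x * x', y⁆ = x * ⁅x', y⁆ * x⁻¹ * ⁅x, y⁆ := by simp only [commutatorElement_def]; group
  unfold form
  rw [h, (commute_upper hW hx (comm_mem' hW hx' hy)).eq, mul_inv_cancel_right,
    par_mul hW (comm_mem' hW hx' hy) (comm_mem' hW hx hy), add_comm]

theorem form_comm {x y : T} (hx : x ∈ W) (hy : y ∈ W) : form x y = form y x := by
  unfold form
  rw [← commutatorElement_inv y x, inv_eq_of_mul_eq_one_right (elementary hW (comm_mem' hW hy hx))]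

theorem form_mul_right {x y y' : T} (hx : x ∈ W) (hy : y ∈ W) (hy' : y' ∈ W) :
    form x (y * y') = form x y + form x y' := by
  rw [form_comm hW hx (W.mul_mem hy hy'), form_mul_left hW hy hy' hx, form_comm hW hx hy,
    form_comm hW hx hy']

omit hW in
theorem form_eq_zero_of_commute {x y : T} (h : Commute x y) : form x y = 0 := by
  unfold form
  rw [commutatorElement_eq_one_iff_commute.2 h, par_one]

theorem form_upper {x z : T} (hx : x ∈ W) (hz : z ∈ Z 3) : form x z = 0 :=
  form_eq_zero_of_commute (commute_upper hW hx hz)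

theorem form_inv {x y : T} (hx : x ∈ W) (hy : y ∈ W) : form x⁻¹ y = form x y := by
  have h := form_mul_left hW (W.inv_mem hx) hx hy
  rw [inv_mul_cancel, form_eq_zero_of_commute (Commute.one_left y)] at h
  have key : ∀ a b : ZMod 2, 0 = a + b → a = b := by decide
  exact key _ _ h

theorem par_sq_mul {x y : T} (hx : x ∈ W) (hy : y ∈ W) :
    par (x * y * (x * y)) = par (x * x) + par (y * y) + form x y := by
  have h : x * y * (x * y) = x * x * (⁅x⁻¹, y⁆ * (y * y)) := by rw [commutatorElement_def]; group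
  have h1 := comm_mem' hW (W.inv_mem hx) hy
  rw [h, par_mul hW (sq_mem' hW hx) ((Z 3).mul_mem h1 (sq_mem' hW hy)), par_mul hW h1 (sq_mem' hW hy),
    ← form_inv hW hx hy]
  unfold form
  abel

/-- The radical of one vector. -/
def perp {x : T} (hx : x ∈ W) : Subgroup T where
  carrier := {y | y ∈ W ∧ form x y = 0}
  one_mem' := ⟨W.one_mem, form_eq_zero_of_commute (Commute.one_right x)⟩
  mul_mem' := fun {a b} ha hb => ⟨W.mul_mem ha.1 hb.1, by
    rw [form_mul_right hW hx ha.1 hb.1, ha.2, hb.2, add_zero]⟩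
  inv_mem' := fun {a} ha => ⟨W.inv_mem ha.1, by
    rw [form_comm hW hx (W.inv_mem ha.1), form_inv hW ha.1 hx, form_comm hW ha.1 hx, ha.2]⟩

/-- The second centre's centraliser has index two. -/
theorem centralizer_two {e2 : T} (a : e2 ∈ Z 2) (b : e2 ∉ Z 1) :
    (∀ t, Commute t e2 → ∀ x ∈ Z 2, Commute t x) ∧ (∃ g, ¬ Commute g e2) ∧
      ∀ t t', ¬ Commute t e2 → ¬ Commute t' e2 → Commute (t * t') e2 := by
  obtain ⟨c1, c2, -⟩ := card_upper hW
  refine ⟨fun t h2 x hx => ?_, ?_, fun t t' h h' => ?_⟩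
  · by_cases hx1 : x ∈ Z 1
    · exact commute_one hx1 t
    have h := double (Subgroup.upperCentralSeries_mono T (show 1 ≤ 2 by omega)) (by omega) a b hx hx1
    have := h2.inv_right.mul_right (commute_one h t)
    rwa [inv_mul_cancel_left] at this
  · by_contra! hall
    refine b (Subgroup.mem_upperCentralSeries_succ_iff.2 fun y => ?_)
    rw [Subgroup.upperCentralSeries_zero, Subgroup.mem_bot, commutatorElement_eq_one_iff_commute]
    exact (hall y).symm
  · have hne : ∀ t, ¬ Commute t e2 → t * e2 * t⁻¹ * e2⁻¹ ∉ Z 0 := fun t h h0 => by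
      rw [Subgroup.upperCentralSeries_zero, Subgroup.mem_bot, mul_inv_eq_one, mul_inv_eq_iff_eq_mul] at h0
      exact h h0
    have h1 := double (Subgroup.upperCentralSeries_mono T (show 0 ≤ 1 by omega))
      (by rw [Subgroup.upperCentralSeries_zero, Subgroup.card_bot, c1])
      (conj_div_mem a t) (hne t h) (conj_div_mem a t') (hne t' h')
    rw [Subgroup.upperCentralSeries_zero, Subgroup.mem_bot] at h1
    set z := t * e2 * t⁻¹ * e2⁻¹ with hz
    set z' := t' * e2 * t'⁻¹ * e2⁻¹ with hz'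
    have hcz : Commute t z' := commute_one (conj_div_mem a t') t
    have hzz : z' * z = 1 :=
      ((commute_one (conj_div_mem a t') z).symm.eq).trans h1
    have : t * t' * e2 * (t * t')⁻¹ = e2 := by
      rw [show t * t' * e2 * (t * t')⁻¹ = t * z' * t⁻¹ * z * e2 by rw [hz, hz']; group, hcz.eq,
        mul_inv_cancel_right, hzz, one_mul]
    exact mul_inv_eq_iff_eq_mul.1 this

/-- The centre of the centraliser is the third centre. -/
theorem center_le {x₀ : T} (hx₀ : x₀ ∈ W) (hx₀c : ∀ y ∈ W, Commute x₀ y) : x₀ ∈ Z 3 := by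
  classical
  haveI := normal hW
  letI : Fintype (T ⧸ W) := Fintype.ofFinite _
  by_contra hx₀3
  obtain ⟨-, hidx, -, -, L, u, w, hZL, hLW, huW, hu4, huL, hw, hL2, hdelta, hN, huniq⟩ := main hW
  -- `u` is central in `W`
  have hu : ∀ y ∈ W, Commute y u := by
    have hmem : ∀ y, y ∈ (Subgroup.center W).map W.subtype ↔ y ∈ W ∧ ∀ z ∈ W, Commute z y := by
      intro y
      constructor
      · rintro ⟨y', hy', rfl⟩
        exact ⟨y'.2, fun z hz => congrArg Subtype.val (Subgroup.mem_center_iff.1 hy' ⟨z, hz⟩)⟩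
      · exact fun ⟨hy, h⟩ => ⟨⟨y, hy⟩, Subgroup.mem_center_iff.2 fun z => Subtype.ext (h z z.2), rfl⟩
    obtain ⟨c, hc, hc3, hc4⟩ := exists_upper (N := (Subgroup.center W).map W.subtype) hW.isTwo 3
      (fun h => hx₀3 (h ((hmem _).2 ⟨hx₀, fun z hz => (hx₀c z hz).symm⟩)))
    obtain ⟨hcW, hcc⟩ := (hmem c).1 hc
    intro y hy
    have := (commute_upper hW hy (huniq c hcW hc4 hc3)).mul_right (hcc y hy).inv_right
    rwa [mul_inv_cancel_right] at this
  have hbu : ∀ y ∈ W, form y u = 0 := fun y hy => form_eq_zero_of_commute (hu y hy)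
  have hconjW : ∀ t, ∀ m ∈ W, t * m * t⁻¹ ∈ W := fun t m hm => (normal hW).conj_mem m hm t
  have hconj3 : ∀ t, ∀ m ∈ Z 3, t * m * t⁻¹ ∈ Z 3 := fun t m hm =>
    Subgroup.Normal.conj_mem inferInstance m hm t
  have hconjL : ∀ a ∈ W, ∀ x ∈ W, (a * x * a⁻¹ ∈ L ↔ x ∈ L) := by
    intro a ha x hx
    have e : a * x * a⁻¹ = ⁅a, x⁆ * x := by rw [commutatorElement_def]; group
    rw [e]
    exact L.mul_mem_cancel_left (hZL (comm_mem' hW ha hx))
  let c : T → T := fun t => t * w * t⁻¹
  have hc : ∀ t, c t ∈ W := fun t => hconjW t w hw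
  have hcb : ∀ y ∈ W, ∀ t, ∀ a ∈ W, form y (c (t * a)) = form y (c t) := by
    intro y hy t a ha
    have e : c (t * a) = t * ⁅a, w⁆ * t⁻¹ * c t := by
      simp only [c, commutatorElement_def]; group
    have h3 := hconj3 t _ (comm_mem' hW ha hw)
    rw [e, form_mul_right hW hy (upper_le hW h3) (hc t), form_upper hW hy h3, zero_add]
  have hout : ∀ (t : T), ∃ a ∈ W, ((t : T) : T ⧸ W).out = t * a := fun t => by
    obtain ⟨⟨a, ha⟩, h⟩ := QuotientGroup.mk_out_eq_mul W t
    exact ⟨a, ha, h⟩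
  -- vectors with prescribed translates
  have vec : ∀ s : Finset (T ⧸ W), ∃ v ∈ W, (∀ t, t * v * t⁻¹ ∈ L ↔ ((t⁻¹ : T) : T ⧸ W) ∉ s) ∧
      (∀ y ∈ W, form y v = ∑ q ∈ s, form y (c q.out)) ∧
      (∀ U : Subgroup T, (∀ g, c g ∈ U) → v ∈ U) := by
    intro s
    induction s using Finset.induction_on with
    | empty =>
      exact ⟨1, W.one_mem, fun t => by simp, fun y _ => by
        rw [Finset.sum_empty]; exact form_eq_zero_of_commute (Commute.one_right y),
        fun U _ => U.one_mem⟩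
    | insert q s hq ih =>
      obtain ⟨v, hv, hvS, hvb, hvU⟩ := ih
      refine ⟨c q.out * v, W.mul_mem (hc _) hv, fun t => ?_, fun y hy => ?_,
        fun U hU => U.mul_mem (hU _) (hvU U hU)⟩
      · have e : t * (c q.out * v) * t⁻¹ = c (t * q.out) * (t * v * t⁻¹) := by
          simp only [c]; group
        have h1 : t * q.out ∈ W ↔ ((t⁻¹ : T) : T ⧸ W) = q := by
          conv_rhs => rw [← QuotientGroup.out_eq' q, QuotientGroup.eq, inv_inv]
        have h2 : c (t * q.out) ∈ L ↔ ((t⁻¹ : T) : T ⧸ W) ≠ q := (hdelta _).trans (not_congr h1)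
        rw [e, hL2 _ (hc _) _ (hconjW t v hv), h2, hvS t, Finset.mem_insert]
        generalize ((t⁻¹ : T) : T ⧸ W) = p
        by_cases hcase : p = q <;> simp [hcase, hq]
      · rw [Finset.sum_insert hq, form_mul_right hW hy (hc _) hv, hvb y hy]
  have hgen : ∀ U : Subgroup T, Z 3 ≤ U → (∀ g, c g ∈ U) → W ≤ U := by
    intro U hU hcU m hm
    obtain ⟨v, hv, hvS, -, hvU⟩ := vec (Finset.univ.filter fun q : T ⧸ W => q.out⁻¹ * m * q.out ∉ L)
    have key : v⁻¹ * m ∈ Z 3 := by
      refine hN _ (W.mul_mem (W.inv_mem hv) hm) fun t => ?_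
      obtain ⟨a, ha, he⟩ := hout t⁻¹
      have h1 : t * m * t⁻¹ ∈ L ↔ t * v * t⁻¹ ∈ L := by
        rw [hvS t, Finset.mem_filter, he]
        simp only [Finset.mem_univ, true_and, not_not]
        rw [← hconjL a⁻¹ (W.inv_mem ha) (t * m * t⁻¹) (hconjW t m hm)]
        simp [mul_assoc]
      rw [show t * (v⁻¹ * m) * t⁻¹ = (t * v * t⁻¹)⁻¹ * (t * m * t⁻¹) by group,
        hL2 _ (W.inv_mem (hconjW t v hv)) _ (hconjW t m hm), L.inv_mem_iff]
      exact h1.symm
    simpa using U.mul_mem (hvU U hcU) (hU key)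
  have hsum : ∀ y ∈ W, ∑ q : T ⧸ W, form y (c q.out) = 0 := by
    intro y hy
    obtain ⟨v, hv, hvS, hvb, -⟩ := vec Finset.univ
    rw [← hvb y hy]
    have key : u * v ∈ Z 3 := by
      refine hN _ (W.mul_mem huW hv) fun t => ?_
      rw [show t * (u * v) * t⁻¹ = (t * u * t⁻¹) * (t * v * t⁻¹) by group,
        hL2 _ (hconjW t u huW) _ (hconjW t v hv), hvS t]
      refine iff_of_false (fun h => huL ?_) (not_not.2 (Finset.mem_univ _))
      have := L.mul_mem (L.inv_mem (hZL (conj_div_mem (j := 3) hu4 t))) h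
      rwa [show (t * u * t⁻¹ * u⁻¹)⁻¹ * (t * u * t⁻¹) = u by group] at this
    have h := form_upper hW hy key
    rwa [form_mul_right hW hy huW hv, hbu y hy, zero_add] at h
  -- the two halves
  obtain ⟨e2, e3, ha2, hb2, ha3, hb3⟩ := exists_reps hW
  obtain ⟨hA2, ⟨g, hg⟩, hA3⟩ := centralizer_two hW ha2 hb2
  set A : Subgroup T := Subgroup.centralizer {e2} with hAdef
  have hmemA : ∀ t, t ∈ A ↔ Commute t e2 := fun t => by
    rw [hAdef, Subgroup.mem_centralizer_iff]
    simp only [Set.mem_singleton_iff, forall_eq]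
    exact eq_comm
  have hgA : g ∉ A := fun h => hg ((hmemA g).1 h)
  have hA2' : ∀ t t', t ∉ A → t' ∉ A → t * t' ∈ A := fun t t' h h' =>
    (hmemA _).2 (hA3 t t' (fun x => h ((hmemA t).2 x)) (fun x => h' ((hmemA t').2 x)))
  have hm23 := Subgroup.upperCentralSeries_mono T (show 2 ≤ 3 by omega)
  have hWA : W ≤ A := fun t ht => (hmemA t).2 (commute_upper hW ht (hm23 ha2))
  have hAn : ∀ s, ∀ h ∈ A, s⁻¹ * h * s ∈ A := by
    intro s h hh
    by_cases hs : s ∈ A
    · exact A.mul_mem (A.mul_mem (A.inv_mem hs) hh) hs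
    · exact hA2' _ _ (fun h' => hs (by simpa using A.mul_mem hh (A.inv_mem h'))) hs
  have hsqA : ∀ h ∈ A, h * h ∈ W := by
    intro h hh
    refine mem_of_fix hW ha2 hb2 ha3 hb3 (((hmemA h).1 hh).mul_left ((hmemA h).1 hh)) ?_
    set z := h * e3 * h⁻¹ * e3⁻¹ with hz
    have hz2 : z ∈ Z 2 := conj_div_mem ha3 h
    have hhz : h * z * h⁻¹ = z := by
      rw [(hA2 h ((hmemA h).1 hh) z hz2).eq, mul_inv_cancel_right]
    have : h * h * e3 * (h * h)⁻¹ = e3 := by
      rw [show h * h * e3 * (h * h)⁻¹ = h * z * h⁻¹ * z * e3 by rw [hz]; group, hhz,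
        elementary hW (hm23 hz2), one_mul]
    exact mul_inv_eq_iff_eq_mul.1 this
  let χ : T → ZMod 2 := fun t => form w (c t)
  have hχW : ∀ t, ∀ a ∈ W, χ (t * a) = χ t := fun t a ha => hcb w hw t a ha
  have hχA : ∀ h ∈ A, χ h = 0 := by
    intro h hh
    refine par_eq_zero.2 ?_
    by_contra hf
    have hf3 : ⁅w, c h⁆ ∈ Z 3 := comm_mem' hW hw (hc h)
    set z := ⁅h * h, w⁆ with hz
    have hz3 : z ∈ Z 3 := comm_mem' hW (hsqA h hh) hw
    have e1 : h * ⁅w, c h⁆ * h⁻¹ = ⁅c h, z * w⁆ := by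
      simp only [c, hz, commutatorElement_def]; group
    have e2' : ⁅c h, z * w⁆ = ⁅c h, w⁆ := by
      rw [show ⁅c h, z * w⁆ = ⁅c h, z⁆ * (z * ⁅c h, w⁆ * z⁻¹) by
          simp only [commutatorElement_def]; group,
        commutatorElement_eq_one_iff_commute.2 (commute_upper hW (hc h) hz3), one_mul,
        (commute_upper hW (upper_le hW hz3) (comm_mem' hW (hc h) hw)).eq, mul_inv_cancel_right]
    have e3' : ⁅c h, w⁆ = ⁅w, c h⁆ := by
      rw [← commutatorElement_inv w (c h), inv_eq_of_mul_eq_one_right (elementary hW hf3)]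
    have hcom : Commute h ⁅w, c h⁆ := mul_inv_eq_iff_eq_mul.1 (e1.trans (e2'.trans e3'))
    have hhW : h ∈ W := mem_of_fix hW ha2 hb2 hf3 hf ((hmemA h).1 hh) hcom
    refine hf ?_
    have e4 : c h = ⁅h, w⁆ * w := by simp only [c, commutatorElement_def]; group
    have hc1 : Commute w (c h) := by
      rw [e4]
      exact (commute_upper hW hw (comm_mem' hW hhW hw)).mul_right (Commute.refl w)
    rw [commutatorElement_eq_one_iff_commute.2 hc1]
    exact (Z 2).one_mem
  have hcc : ∀ t t', form (c t) (c t') = χ (t⁻¹ * t') := fun t t' => by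
    rw [show c t' = t * c (t⁻¹ * t') * t⁻¹ by simp only [c]; group]
    exact form_conj t w _
  have houtA : ∀ t, ((t : T) : T ⧸ W).out ∈ A ↔ t ∈ A := fun t => by
    obtain ⟨a, ha, he⟩ := hout t
    rw [he]; exact A.mul_mem_cancel_right (hWA ha)
  have hχout : ∀ t, χ ((t : T) : T ⧸ W).out = χ t := fun t => by
    obtain ⟨a, ha, he⟩ := hout t
    rw [he]; exact hχW t a ha
  -- sums over one coset
  have hfour : ∀ s, s ∉ A → ∀ h ∈ A, ∀ k ∈ A,
      χ s + χ (s * k) + (χ (s * h) + χ (s * h * k)) = 0 := by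
    intro s hs h hh k hk
    have two : ∀ p q : ZMod 2, p + p + (q + q) = 0 ∧ p + q + (p + q) = 0 ∧ p + q + (q + p) = 0 := by
      decide
    by_cases hkW : k ∈ W
    · rw [hχW s k hkW, hχW (s * h) k hkW]; exact (two _ _).1
    by_cases hhW : h ∈ W
    · rw [hχW s h hhW, show s * h * k = s * k * (k⁻¹ * h * k) by group,
        hχW (s * k) _ (by simpa using hconjW k⁻¹ h hhW)]
      exact (two _ _).2.1
    by_cases hkh : h⁻¹ * k ∈ W
    · rw [show s * k = s * h * (h⁻¹ * k) by group, hχW (s * h) _ hkh,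
        show s * h * k = s * (h * h * (h⁻¹ * k)) by group,
        hχW s _ (W.mul_mem (hsqA h hh) hkh)]
      exact (two _ _).2.2
    set F := Finset.univ.filter fun q : T ⧸ W => q.out ∉ A with hF
    have hmemF : ∀ t : T, ((t : T) : T ⧸ W) ∈ F ↔ t ∉ A := fun t => by simp [hF, houtA]
    have hFcard : F.card ≤ 4 := by
      have h1 : F.card ≤ (Finset.univ.filter fun q : T ⧸ W => q.out ∈ A).card := by
        refine Finset.card_le_card_of_injOn (fun q => q * ((g : T) : T ⧸ W)) ?_
          (fun _ _ _ _ he => mul_right_cancel he)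
        intro q hq
        obtain ⟨t, rfl⟩ := QuotientGroup.mk_surjective q
        have ht := (hmemF t).1 hq
        simp only [Finset.coe_filter, Finset.mem_univ, true_and, Set.mem_setOf_eq]
        rw [← QuotientGroup.mk_mul, houtA]
        exact hA2' t g ht hgA
      have h2 := Finset.card_filter_add_card_filter_not (s := (Finset.univ : Finset (T ⧸ W)))
        (fun q => q.out ∈ A)
      rw [Finset.card_univ, ← Nat.card_eq_fintype_card, ← Subgroup.index_eq_card, hidx, ← hF] at h2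
      omega
    have hne : ∀ a b : T, a⁻¹ * b ∉ W → ((a : T) : T ⧸ W) ≠ b := fun a b hab he =>
      hab (QuotientGroup.eq.1 he)
    have d1 := hne s (s * k) (by simpa using hkW)
    have d2 := hne s (s * h) (by simpa using hhW)
    have d3 := hne s (s * h * k) (by
      rw [show s⁻¹ * (s * h * k) = h * h * (h⁻¹ * k) by group]
      exact fun hx => hkh (by simpa using W.mul_mem (W.inv_mem (hsqA h hh)) hx))
    have d4 := hne (s * k) (s * h) (by
      rw [show (s * k)⁻¹ * (s * h) = (h⁻¹ * k)⁻¹ by group, W.inv_mem_iff]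
      exact hkh)
    have d5 := hne (s * k) (s * h * k) (by
      rw [show (s * k)⁻¹ * (s * h * k) = k⁻¹ * h * k by group]
      exact fun hx => hhW (by simpa [mul_assoc] using hconjW k _ hx))
    have d6 := hne (s * h) (s * h * k) (by rw [inv_mul_cancel_left]; exact hkW)
    have hnA : ∀ x ∈ A, s * x ∉ A := fun x hx hsx => hs (by simpa using A.mul_mem hsx (A.inv_mem hx))
    have hFeq : ({((s : T) : T ⧸ W), ((s * k : T) : T ⧸ W), ((s * h : T) : T ⧸ W),
        ((s * h * k : T) : T ⧸ W)} : Finset (T ⧸ W)) = F := by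
      refine Finset.eq_of_subset_of_card_le ?_ (hFcard.trans ?_)
      · intro q hq
        simp only [Finset.mem_insert, Finset.mem_singleton] at hq
        rcases hq with rfl | rfl | rfl | rfl <;> rw [hmemF]
        · exact hs
        · exact hnA k hk
        · exact hnA h hh
        · rw [mul_assoc]; exact hnA _ (A.mul_mem hh hk)
      · rw [Finset.card_insert_of_notMem (by simp only [Finset.mem_insert, Finset.mem_singleton, not_or]; exact ⟨d1, d2, d3⟩),
          Finset.card_insert_of_notMem (by simp only [Finset.mem_insert, Finset.mem_singleton, not_or]; exact ⟨d4, d5⟩),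
          Finset.card_insert_of_notMem (by simp only [Finset.mem_singleton]; exact d6), Finset.card_singleton]
    have h0 : ∑ q ∈ F, χ q.out = 0 := by
      have := hsum w hw
      rw [← Finset.sum_filter_add_sum_filter_not (s := (Finset.univ : Finset (T ⧸ W)))
        (p := fun q => q.out ∈ A), Finset.sum_eq_zero (fun q hq => hχA _ (Finset.mem_filter.1 hq).2),
        zero_add] at this
      exact this
    rw [← hFeq, Finset.sum_insert (by simp only [Finset.mem_insert, Finset.mem_singleton, not_or]; exact ⟨d1, d2, d3⟩), Finset.sum_insert (by simp only [Finset.mem_insert, Finset.mem_singleton, not_or]; exact ⟨d4, d5⟩),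
      Finset.sum_insert (by simp only [Finset.mem_singleton]; exact d6), Finset.sum_singleton, hχout, hχout, hχout, hχout] at h0
    rw [← h0]; abel
  -- the totally isotropic subgroup
  let G : Set T := {x | ∃ t, ∃ h ∈ A, x = c t * c (t * h)}
  have hGW : G ⊆ W := by rintro _ ⟨t, h, -, rfl⟩; exact W.mul_mem (hc _) (hc _)
  have hGG : ∀ x ∈ G, ∀ y ∈ G, form x y = 0 := by
    rintro _ ⟨t, h, hh, rfl⟩ _ ⟨t', k, hk, rfl⟩
    rw [form_mul_left hW (hc _) (hc _) (W.mul_mem (hc _) (hc _)), form_mul_right hW (hc _) (hc _) (hc _),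
      form_mul_right hW (hc _) (hc _) (hc _), hcc, hcc, hcc, hcc]
    set s := t⁻¹ * t' with hs
    rw [show t⁻¹ * (t' * k) = s * k by rw [hs]; group,
      show (t * h)⁻¹ * t' = h⁻¹ * s by rw [hs]; group,
      show (t * h)⁻¹ * (t' * k) = h⁻¹ * s * k by rw [hs]; group]
    by_cases hsA : s ∈ A
    · have hh' := A.inv_mem hh
      rw [hχA s hsA, hχA _ (A.mul_mem hsA hk), hχA _ (A.mul_mem hh' hsA),
        hχA _ (A.mul_mem (A.mul_mem hh' hsA) hk)]
      rfl
    · rw [show h⁻¹ * s = s * (s⁻¹ * h⁻¹ * s) by group]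
      exact hfour s hsA _ (hAn s _ (A.inv_mem hh)) k hk
  set U := Subgroup.closure ((Z 3 : Set T) ∪ G) with hU
  have hZU : Z 3 ≤ U := fun x hx => Subgroup.subset_closure (Or.inl hx)
  have hGU : G ⊆ U := fun x hx => Subgroup.subset_closure (Or.inr hx)
  have hUW : U ≤ W := (Subgroup.closure_le W).2 (Set.union_subset (upper_le hW) hGW)
  have hiso : ∀ x ∈ U, ∀ y ∈ U, form x y = 0 := by
    have h1 : ∀ x (hx : x ∈ G), U ≤ perp hW (hGW hx) := fun x hx => (Subgroup.closure_le _).2
      (Set.union_subset (fun z hz => ⟨upper_le hW hz, form_upper hW (hGW hx) hz⟩)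
        (fun y hy => ⟨hGW hy, hGG x hx y hy⟩))
    intro x hx
    have h2 : U ≤ perp hW (hUW hx) := (Subgroup.closure_le _).2
      (Set.union_subset (fun z hz => ⟨upper_le hW hz, form_upper hW (hUW hx) hz⟩)
        (fun y hy => ⟨hGW hy, by
          rw [form_comm hW (hUW hx) (hGW hy)]; exact (h1 y hy hx).2⟩))
    exact fun y hy => (h2 hy).2
  have hsq : ∀ x ∈ U, x * x ∈ Z 2 := by
    intro x hx
    have key : x ∈ U ∧ x * x ∈ Z 2 := by
      induction hx using Subgroup.closure_induction with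
      | mem y hy =>
        refine ⟨Subgroup.subset_closure hy, ?_⟩
        rcases hy with hy | ⟨t, h, hh, rfl⟩
        · rw [elementary hW hy]; exact (Z 2).one_mem
        · have e : ∀ t, par (c t * c t) = par (w * w) := fun t => by
            rw [← par_conj t (w * w)]; congr 1; simp only [c]; group
          rw [← par_eq_zero, par_sq_mul hW (hc t) (hc _), e, e, hcc, inv_mul_cancel_left, hχA h hh,
            add_zero]
          exact CharTwo.add_self_eq_zero _
      | one => exact ⟨U.one_mem, by rw [mul_one]; exact (Z 2).one_mem⟩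
      | mul a b _ _ ha hb =>
        refine ⟨U.mul_mem ha.1 hb.1, ?_⟩
        rw [← par_eq_zero, par_sq_mul hW (hUW ha.1) (hUW hb.1), par_eq_zero.2 ha.2, par_eq_zero.2 hb.2,
          hiso a ha.1 b hb.1]
        simp
      | inv a _ ha => exact ⟨U.inv_mem ha.1, by rw [← mul_inv_rev]; exact (Z 2).inv_mem ha.2⟩
    exact key.2
  -- its index
  set U1 := adj W (Z 3) U (fun x hx => sq_mem' hW hx) hZU hUW hw with hU1
  have hUU1 : U ≤ U1 := fun m hm => ⟨hUW hm, Or.inl hm⟩
  set U2 := adj W (Z 3) U1 (fun x hx => sq_mem' hW hx) (hZU.trans hUU1) (fun m hm => hm.1) (hc g)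
    with hU2
  have hall : W ≤ U2 := by
    refine hgen U2 (fun z hz => ⟨upper_le hW hz, Or.inl (hUU1 (hZU hz))⟩) fun t => ?_
    by_cases ht : t ∈ A
    · refine ⟨hc t, Or.inl ⟨hc t, Or.inr ?_⟩⟩
      have h1 : w * c t ∈ U := hGU ⟨1, t, ht, by simp [c]⟩
      rw [show c t * w = ⁅c t, w⁆ * (w * c t) by rw [commutatorElement_def]; group]
      exact U.mul_mem (hZU (comm_mem' hW (hc t) hw)) h1
    · refine ⟨hc t, Or.inr (hUU1 (hGU ⟨t, t⁻¹ * g, ?_, by rw [mul_inv_cancel_left]⟩))⟩
      exact hA2' _ _ (fun h => ht (by simpa using A.inv_mem h)) hgA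
  have hrel : U.relIndex W ≤ 4 := by
    rw [← Subgroup.relIndex_mul_relIndex U U1 W hUU1 fun m hm => hm.1]
    exact Nat.mul_le_mul (relIndex_le_two (U := U1) (L := U) (x := w) ⟨hw, Or.inr (hZU (sq_mem' hW hw))⟩ fun m hm => hm.2)
      (relIndex_le_two (x := c g) (hc g) fun m hm => (hall hm).2)
  obtain ⟨-, hcard2, hcard3⟩ := card_upper hW
  refine no_small hW hUW (hrel.trans (by omega)) (K := Z 2) (lt_of_le_of_ne hm23 fun e => ?_) hsq
  rw [e] at hcard2
  omega

theorem card_center : Nat.card (Subgroup.center W) = 8 := by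
  have : (Subgroup.center W).map W.subtype = Z 3 := by
    refine le_antisymm ?_ fun x hx => ⟨⟨x, upper_le hW hx⟩, Subgroup.mem_center_iff.2 fun z =>
      Subtype.ext (commute_upper hW z.2 hx), rfl⟩
    rintro _ ⟨x, hx, rfl⟩
    exact center_le hW x.2 fun y hy =>
      Commute.symm (congrArg Subtype.val (Subgroup.mem_center_iff.1 hx ⟨y, hy⟩))
  rw [← Subgroup.card_map_of_injective W.subtype_injective, this]
  exact (card_upper hW).2.2

/-- The quotient is dihedral. -/
theorem quotient_dihedral : ∃ (_ : W.Normal), Nonempty (T ⧸ W ≃* DihedralGroup 4) := by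
  haveI := normal hW
  refine ⟨inferInstance, ?_⟩
  obtain ⟨e2, e3, a, b, c, d⟩ := exists_reps hW
  obtain ⟨c1, c2, c3⟩ := card_upper hW
  obtain ⟨-, hidx, -⟩ := main hW
  let f : T ⧸ W → Z 1 × Z 2 := fun q => (⟨_, conj_div_mem a q.out⟩, ⟨_, conj_div_mem c q.out⟩)
  have hf : Function.Injective f := by
    intro q q' h
    simp only [f, Prod.mk.injEq, Subtype.mk.injEq, mul_left_inj] at h
    have key : ∀ e, q.out * e * q.out⁻¹ = q'.out * e * q'.out⁻¹ → Commute (q'.out⁻¹ * q.out) e :=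
      fun e he => by
      show q'.out⁻¹ * q.out * e = e * (q'.out⁻¹ * q.out)
      calc q'.out⁻¹ * q.out * e = q'.out⁻¹ * (q.out * e * q.out⁻¹) * q.out := by group
        _ = _ := by rw [he]; group
    have := mem_of_fix hW a b c d (key _ h.1) (key _ h.2)
    rw [← QuotientGroup.out_eq' q, ← QuotientGroup.out_eq' q']
    exact (QuotientGroup.eq.2 this).symm
  have hsurj : Function.Surjective f := (hf.bijective_of_nat_card_le (by
    rw [Nat.card_prod, c1, c2, ← Subgroup.index_eq_card, hidx])).2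
  have act : ∀ z1 ∈ Z 1, ∀ z2 ∈ Z 2, ∃ t, t * e2 * t⁻¹ = z1 * e2 ∧ t * e3 * t⁻¹ = z2 * e3 := by
    intro z1 h1 z2 h2
    obtain ⟨q, hq⟩ := hsurj (⟨z1, h1⟩, ⟨z2, h2⟩)
    simp only [f, Prod.mk.injEq, Subtype.mk.injEq] at hq
    exact ⟨q.out, mul_inv_eq_iff_eq_mul.1 hq.1, mul_inv_eq_iff_eq_mul.1 hq.2⟩
  obtain ⟨z, hz, hz1⟩ : ∃ z ∈ Z 1, z ≠ 1 := by
    by_contra! h
    have : Z 1 = ⊥ := (Subgroup.eq_bot_iff_forall _).2 h
    rw [this, Subgroup.card_bot] at c1
    omega
  have hm := Subgroup.upperCentralSeries_mono T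
  have hz3 : z ∈ Z 3 := hm (show 1 ≤ 3 by omega) hz
  have hzz := elementary hW hz3
  have hz2 : z ∈ Z 2 := hm (show 1 ≤ 2 by omega) hz
  obtain ⟨r, hr2, hr3⟩ := act z hz e2 a
  obtain ⟨s, hs2, hs3⟩ := act z hz 1 (Z 2).one_mem
  rw [one_mul] at hs3
  have he22 := elementary hW (hm (show 2 ≤ 3 by omega) a)
  have hcj : ∀ t x y : T, t * (x * y) * t⁻¹ = (t * x * t⁻¹) * (t * y * t⁻¹) := fun t x y => by group
  have hcz : ∀ t : T, t * z * t⁻¹ = z := fun t => by rw [(commute_one hz t).eq, mul_inv_cancel_right]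
  have hcomp : ∀ t t' x : T, t * t' * x * (t * t')⁻¹ = t * (t' * x * t'⁻¹) * t⁻¹ := fun t t' x => by group
  have hmemW : ∀ t, t * e2 * t⁻¹ = e2 → t * e3 * t⁻¹ = e3 → t ∈ W := fun t h h' =>
    mem_of_fix hW a b c d (mul_inv_eq_iff_eq_mul.1 h) (mul_inv_eq_iff_eq_mul.1 h')
  have hnot : ∀ t, ∀ x ∈ Z 3, t * x * t⁻¹ ≠ x → t ∉ W := fun t x hx h ht =>
    h (by rw [(commute_upper hW ht hx).eq, mul_inv_cancel_right])
  have hRR2 : r * r * e2 * (r * r)⁻¹ = e2 := by
    rw [hcomp, hr2, hcj, hcz, hr2, ← mul_assoc, hzz, one_mul]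
  have hRR3 : r * r * e3 * (r * r)⁻¹ = z * e3 := by
    rw [hcomp, hr3, hcj, hr2, hr3, mul_assoc, ← mul_assoc e2 e2, he22, one_mul]
  have hR2 : r * r ∉ W := hnot _ e3 c fun h => by
    rw [hRR3] at h
    exact hz1 (mul_eq_right.1 h)
  have hR4 : r * r * (r * r) ∈ W := hmemW _ (by rw [hcomp, hRR2, hRR2])
    (by rw [hcomp, hRR3, hcj, hcz, hRR3, ← mul_assoc, hzz, one_mul])
  have hS2 : s * s ∈ W := hmemW _ (by rw [hcomp, hs2, hcj, hcz, hs2, ← mul_assoc, hzz, one_mul])
    (by rw [hcomp, hs3, hs3])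
  have hsr2 : s * r * e2 * (s * r)⁻¹ = e2 := by
    rw [hcomp, hr2, hcj, hcz, hs2, ← mul_assoc, hzz, one_mul]
  have hsr3 : s * r * e3 * (s * r)⁻¹ = z * e2 * e3 := by rw [hcomp, hr3, hcj, hs2, hs3]
  have hSR : s * r * (s * r) ∈ W := hmemW _ (by rw [hcomp, hsr2, hsr2]) (by
    rw [hcomp, hsr3, hcj, hcj, hcz, hsr2, hsr3, ← mul_assoc,
      (commute_one hz e2).mul_mul_mul_comm, hzz, he22, one_mul, one_mul])
  set R := QuotientGroup.mk' W r with hRdef
  set S := QuotientGroup.mk' W s with hSdef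
  have hin : ∀ t, QuotientGroup.mk' W t = 1 ↔ t ∈ W := fun t => QuotientGroup.eq_one_iff t
  have hord : orderOf R = 2 ^ 2 := by
    refine orderOf_eq_prime_pow ?_ ?_
    · rw [hRdef, ← map_pow, hin, pow_one, pow_two]; exact hR2
    · rw [hRdef, ← map_pow, hin, show (2 : ℕ) ^ (1 + 1) = 2 + 2 from rfl, pow_add, pow_two]; exact hR4
  have hSS : S * S = 1 := by rw [hSdef, ← map_mul, hin]; exact hS2
  refine PermGroups.CubicSuborbit.nonempty_mulEquiv_dihedral S R hord hSS ?_ ?_
    (by rw [← Subgroup.index_eq_card, hidx])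
  · apply eq_inv_of_mul_eq_one_left
    rw [hSdef, hRdef, ← map_mul, ← map_mul, ← map_mul, hin, mul_assoc (s * r)]
    exact hSR
  · intro hmem
    obtain ⟨k, hk⟩ := (mem_powers_iff_mem_zpowers (x := R)).2 hmem
    change R ^ k = S at hk
    rw [← pow_mod_orderOf, hord] at hk
    have hlt : k % 2 ^ 2 < 4 := Nat.mod_lt _ (by norm_num)
    have hne : ∀ t, QuotientGroup.mk' W t = S → ∀ x ∈ Z 3, t * x * t⁻¹ = s * x * s⁻¹ := by
      intro t ht x hx
      have hts : s⁻¹ * t ∈ W := by
        rw [← hin, map_mul, map_inv, ht, hSdef, inv_mul_cancel]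
      have := (commute_upper hW hts hx).eq
      calc t * x * t⁻¹ = s * (s⁻¹ * t * x) * t⁻¹ := by group
        _ = _ := by rw [this]; group
    have he2z : z * e2 ≠ e2 := fun h => hz1 (mul_eq_right.1 h)
    have he21 : e2 ≠ 1 := fun h => b (h ▸ (Z 1).one_mem)
    rw [hRdef, ← map_pow] at hk
    have h2 := hne _ hk e2 (hm (show 2 ≤ 3 by omega) a)
    have h3 := hne _ hk e3 c
    rw [hs2] at h2
    rw [hs3] at h3
    interval_cases hk4 : k % 2 ^ 2
    · simp at h2; exact hz1 h2
    · rw [pow_one, hr3] at h3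
      exact he21 (mul_eq_right.1 h3)
    · rw [pow_two, hRR2] at h2; exact he2z h2.symm
    · rw [show (3 : ℕ) = 2 + 1 from rfl, pow_succ, pow_two, hcomp, hr3, hcj, hRR2, hRR3,
        ← mul_assoc] at h3
      have h4 : e2 * z = 1 := mul_eq_right.1 h3
      exact b ((mul_eq_one_iff_eq_inv.1 h4).symm ▸ (Z 1).inv_mem hz)

end Cfsg.Agent.FGS3.RudvalisType
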