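import Cfsg.Agent.FGS3.RudvalisType.Basic
import Cfsg.Prelude.Def_Transfer
import Mathlib.GroupTheory.SchurZassenhaus

/-!
Automorphisms of odd order of the two-groups of `Basic` are trivial, and the centraliser of the third
centre is weakly closed.
-/

set_option autoImplicit false
set_option linter.unusedSectionVars false
set_option linter.style.haveILetI false

namespace Cfsg.Agent.FGS3.RudvalisType

open scoped commutatorElement

variable {T : Type*} [Group T] [Finite T]

local notation "Z" => Subgroup.upperCentralSeries T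

/-- An automorphism of odd period moving an element by a fixed vector fixes it. -/
theorem eq_one_of_layer (hT : IsPGroup 2 T) (α : MulAut T) {n : ℕ} (hn : Odd n) (hα : α ^ n = 1)
    {x z : T} (hx : α x = x * z) (hz : α z = z) : z = 1 := by
  have h : ∀ k : ℕ, (α ^ k) x = x * z ^ k := by
    intro k
    induction k with
    | zero => simp
    | succ k ih =>
      rw [pow_succ', MulAut.mul_apply, ih, map_mul, map_pow, hx, hz, pow_succ', mul_assoc]
  have h1 := h n
  rw [hα, MulAut.one_apply] at h1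
  have h2 : z ^ n = (1 : T) ^ n := by rw [one_pow]; exact mul_left_cancel (h1.symm.trans (mul_one x).symm)
  exact (hT.powEquiv (Nat.coprime_two_left.2 hn)).injective h2

theorem map_mem_upper (α : MulAut T) {j : ℕ} {x : T} : α x ∈ Z j ↔ x ∈ Z j := by
  have h := Subgroup.Characteristic.fixed (H := Z j) inferInstance α
  exact (iff_of_eq (congrArg (fun H : Subgroup T => x ∈ H) h))

variable {W : Subgroup T} (hW : Cond W)
include hW

/-- Automorphisms of odd period are trivial. -/
theorem auto_trivial (α : MulAut T) {n : ℕ} (hn : Odd n) (hα : α ^ n = 1) : ∀ t, α t = t := by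
  have hm := Subgroup.upperCentralSeries_mono T
  obtain ⟨c1, c2, c3⟩ := card_upper hW
  have hdouble : ∀ j < 4, Nat.card (Z (j + 1)) = 2 * Nat.card (Z j) := by
    intro j hj
    interval_cases j
    · rw [c1, Subgroup.upperCentralSeries_zero, Subgroup.card_bot]
    · show Nat.card (Z 2) = _; omega
    · show Nat.card (Z 3) = _; omega
    · show Nat.card (Z 4) = _; rw [hW.four, c3]
  have hfix : ∀ j ≤ 4, ∀ x ∈ Z j, α x = x := by
    intro j
    induction j with
    | zero =>
      intro _ x hx
      rw [Subgroup.upperCentralSeries_zero, Subgroup.mem_bot] at hx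
      rw [hx, map_one]
    | succ j ih =>
      intro hj x hx
      by_cases hxj : x ∈ Z j
      · exact ih (by omega) x hxj
      have hz := double (hm j.le_succ) (hdouble j (by omega)) ((Z (j + 1)).inv_mem hx)
        (fun h => hxj (inv_inv x ▸ (Z j).inv_mem h)) ((map_mem_upper α).2 hx)
        (fun h => hxj ((map_mem_upper α).1 h))
      have h1 := eq_one_of_layer hW.isTwo α hn hα (x := x) (mul_inv_cancel_left x (α x)).symm
        (ih (by omega) _ hz)
      exact (inv_mul_eq_one.1 h1).symm
  have hdiv : ∀ t, t⁻¹ * α t ∈ W := by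
    intro t
    rw [hW.cen, Subgroup.mem_centralizer_iff]
    intro x hx
    have hcx : t * x * t⁻¹ ∈ Z 3 := Subgroup.Normal.conj_mem inferInstance x hx t
    have h := hfix 3 (by omega) _ hcx
    rw [map_mul, map_mul, map_inv, hfix 3 (by omega) x hx] at h
    calc x * (t⁻¹ * α t) = t⁻¹ * (t * x * t⁻¹) * α t := by group
      _ = t⁻¹ * (α t * x * (α t)⁻¹) * α t := by rw [h]
      _ = t⁻¹ * α t * x := by group
  haveI := normal hW
  have hZ3 : ∀ {a : T} (m : T), a ∈ Z 3 → m * a * m⁻¹ ∈ Z 3 := fun m ha =>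
    Subgroup.Normal.conj_mem inferInstance _ ha m
  have hWfix : ∀ i, ∀ m ∈ W, m ∈ Z i → α m = m := by
    intro i
    induction i with
    | zero =>
      intro m _ hm0
      exact hfix 0 (by omega) m hm0
    | succ i ih =>
      intro m hm hmi
      set d := m⁻¹ * α m with hd
      have hdW : d ∈ W := hdiv m
      have hmd : α m = m * d := by rw [hd, mul_inv_cancel_left]
      have key : ∀ t, ⁅d, t⁆ ∈ Z 3 := by
        intro t
        obtain ⟨a, ha, hat⟩ : ∃ a ∈ W, α t = t * a := ⟨_, hdiv t, (mul_inv_cancel_left _ _).symm⟩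
        have hcW : ⁅m, t⁆ ∈ W := by
          have := W.mul_mem hm (Subgroup.Normal.conj_mem inferInstance _ (W.inv_mem hm) t)
          rw [commutatorElement_def]
          simpa [mul_assoc] using this
        have h := ih _ hcW (Subgroup.mem_upperCentralSeries_succ_iff.1 hmi t)
        rw [map_commutatorElement, hmd, hat] at h
        set q := t * ⁅m, a⁆ * t⁻¹ with hq
        have hq3 : q ∈ Z 3 := hZ3 t (comm_mem' hW hm ha)
        have e : ⁅m * d, t * a⁆ = m * ⁅d, t * a⁆ * m⁻¹ * (⁅m, t⁆ * q) := by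
          rw [hq]; simp only [commutatorElement_def]; group
        rw [e] at h
        have h2 : ⁅d, t * a⁆ = m⁻¹ * (⁅m, t⁆ * q⁻¹ * ⁅m, t⁆⁻¹) * m⁻¹⁻¹ := by
          have := eq_mul_inv_of_mul_eq h
          rw [show ⁅d, t * a⁆ = m⁻¹ * (m * ⁅d, t * a⁆ * m⁻¹) * m by group, this]
          group
        have h3 : ⁅d, t * a⁆ ∈ Z 3 := h2 ▸ hZ3 _ (hZ3 _ ((Z 3).inv_mem hq3))
        have e2 : ⁅d, t⁆ = ⁅d, t * a⁆ * (t * ⁅d, a⁆ * t⁻¹)⁻¹ := by
          simp only [commutatorElement_def]; group
        rw [e2]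
        exact (Z 3).mul_mem h3 ((Z 3).inv_mem (hZ3 t (comm_mem' hW hdW ha)))
      have hd4 : d ∈ Z 4 := Subgroup.mem_upperCentralSeries_succ_iff.2 key
      have h1 := eq_one_of_layer hW.isTwo α hn hα hmd (hfix 4 le_rfl d hd4)
      rw [hmd, h1, mul_one]
  obtain ⟨N, hN⟩ : ∃ N, Z N = ⊤ := by
    haveI : Fact (Nat.Prime 2) := ⟨Nat.prime_two⟩
    haveI : Group.IsNilpotent T := hW.isTwo.isNilpotent
    exact Group.IsNilpotent.nilpotent T
  intro t
  have h1 := eq_one_of_layer hW.isTwo α hn hα (x := t) (mul_inv_cancel_left t (α t)).symm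
    (hWfix N _ (hdiv t) (hN ▸ Subgroup.mem_top _))
  exact (inv_mul_eq_one.1 h1).symm

/-- A conjugate copy of `W` inside `T` is `W`. -/
theorem range_eq (φ : W →* T) (hφ : Function.Injective φ)
    (hd : ∀ U : Subgroup W, U.index ≤ 16 → frattini W ≤ U) : φ.range = W := by
  haveI := normal hW
  obtain ⟨-, hidx, -⟩ := main hW
  obtain ⟨-, -, c3⟩ := card_upper hW
  set P := (frattini W).map φ with hP
  have hPcard : Nat.card P = 8 := by
    rw [hP, Subgroup.card_map_of_injective hφ, ← Subgroup.card_map_of_injective W.subtype_injective,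
      frattini_eq hW, c3]
  have hsq : ∀ x ∈ φ.range, x * x ∈ P := by
    rintro _ ⟨x, rfl⟩
    exact ⟨x * x, by rw [← pow_two]; exact pow_mem_frattini (isTwo_W hW) _, map_mul _ _ _⟩
  have hdeep : ∀ U : Subgroup T, U.relIndex φ.range ≤ 16 → P ≤ U := by
    intro U hU
    rw [hP, Subgroup.map_le_iff_le_comap]
    exact hd _ (by rw [Subgroup.index_comap]; exact hU)
  set U := φ.range ⊓ W with hU
  have hrel : U.relIndex φ.range ≤ 8 := by
    rw [hU, Subgroup.inf_relIndex_left, ← hidx]
    exact Nat.le_of_dvd (by omega) (Subgroup.relIndex_dvd_index_of_normal W φ.range)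
  have hP3 : P ≤ Z 3 := by
    by_contra hno
    obtain ⟨e, he, he3⟩ := SetLike.not_le_iff_exists.1 hno
    have hPU : P ≤ U := hdeep U (hrel.trans (by omega))
    obtain ⟨L, -, hLU, heL, -, hL2⟩ := exists_half (U := U) (K := P ⊓ Z 3) (inf_le_left.trans hPU)
      (fun x hx => ⟨hsq x hx.1, sq_mem' hW hx.2⟩) (hPU he) (fun h => he3 h.2)
    refine heL (hdeep L ?_ he)
    rw [← Subgroup.relIndex_mul_relIndex L U φ.range hLU inf_le_left]
    exact (Nat.mul_le_mul hL2 hrel).trans (by omega)
  have hPZ : P = Z 3 := Subgroup.eq_of_le_of_card_ge hP3 (by rw [hPcard, c3])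
  have hle : φ.range ≤ W := by
    rintro _ ⟨x, rfl⟩
    refine (SetLike.ext_iff.1 hW.cen _).2 (Subgroup.mem_centralizer_iff.2 fun y hy => ?_)
    rw [SetLike.mem_coe, ← hPZ] at hy
    obtain ⟨p, hp, rfl⟩ := hy
    have hp3 : (p : T) ∈ Z 3 := frattini_eq hW ▸ ⟨p, hp, rfl⟩
    have : x * p = p * x := Subtype.ext (commute_upper hW x.2 hp3)
    rw [← map_mul, ← map_mul, this]
  exact Subgroup.eq_of_le_of_card_ge hle
    (by rw [Nat.card_congr (MonoidHom.ofInjective hφ).toEquiv])

end Cfsg.Agent.FGS3.RudvalisType
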